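import Mathlib

/-!
# Weights of an abelian `2`-group normalising an abelian group (helper205)

`comm_of_weights` : `B` an abelian `2`-group normalising the abelian group `A` of order prime to the characteristic; if no
two weights of `B` differ by a character of order two, then `B` centralises `A`.
-/

set_option autoImplicit false

namespace Cfsg.Agent.H205.RM

open Module Module.End Subgroup

variable {K V G : Type*} [Field K] [AddCommGroup V] [Module K V] [FiniteDimensional K V] [Group G]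

omit [FiniteDimensional K V] in
theorem semisimple_of_pow {f : End K V} {m : ℕ} (hm : (m : K) ≠ 0) (hf : f ^ m = 1) : f.IsSemisimple := by
  have h1 : (Polynomial.X ^ m - 1 : Polynomial K).Separable := Polynomial.X_pow_sub_one_separable_iff.2 hm
  refine isSemisimple_of_squarefree_aeval_eq_zero (p := Polynomial.X ^ m - 1) h1.squarefree ?_
  simp [hf]

/-- a common eigenvector -/
theorem exists_joint [IsAlgClosed K] (ρ : G →* End K V) (M : Subgroup G) (hM : ∀ a ∈ M, ∀ b ∈ M, a * b = b * a) :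
    ∀ (n : ℕ) (U : Submodule K V), Module.finrank K U = n → U ≠ ⊥ → (∀ m ∈ M, ∀ u ∈ U, ρ m u ∈ U) →
      ∃ u ∈ U, u ≠ 0 ∧ ∀ m ∈ M, ∃ c : K, ρ m u = c • u := by
  intro n
  induction n using Nat.strong_induction_on with
  | _ n ih =>
    intro U hUn hU hinv
    by_cases hs : ∀ m ∈ M, ∃ c : K, ∀ u ∈ U, ρ m u = c • u
    · obtain ⟨u, hu, hu0⟩ := (Submodule.ne_bot_iff U).1 hU
      exact ⟨u, hu, hu0, fun m hm => (hs m hm).imp fun c hc => hc u hu⟩
    · push Not at hs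
      obtain ⟨m, hm, hm'⟩ := hs
      have hnt : Nontrivial U := (Submodule.nontrivial_iff_ne_bot).2 hU
      obtain ⟨c, hc⟩ := Module.End.exists_eigenvalue ((ρ m).restrict (hinv m hm))
      obtain ⟨w, hw⟩ := hc.exists_hasEigenvector
      have hw1 : ρ m w = c • (w : V) := congrArg Subtype.val hw.apply_eq_smul
      have hw0 : (w : V) ≠ 0 := fun h => hw.2 (Subtype.ext h)
      set U' : Submodule K V := U ⊓ LinearMap.ker (ρ m - c • (1 : End K V)) with hU'
      have hmem : ∀ u, u ∈ U' ↔ u ∈ U ∧ ρ m u = c • u := by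
        intro u
        rw [hU', Submodule.mem_inf, LinearMap.mem_ker, LinearMap.sub_apply, sub_eq_zero]
        rfl
      have hlt : U' < U := by
        refine lt_of_le_of_ne inf_le_left fun h => ?_
        obtain ⟨u, hu, hu'⟩ := hm' c
        rw [← h] at hu
        exact hu' ((hmem u).1 hu).2
      obtain ⟨u, hu, hu0, hu1⟩ := ih _ (by rw [← hUn]; exact Submodule.finrank_lt_finrank_of_lt hlt) U' rfl
        ((Submodule.ne_bot_iff _).2 ⟨w, (hmem _).2 ⟨w.2, hw1⟩, hw0⟩) (fun k hk u hu => by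
          obtain ⟨h1, h2⟩ := (hmem u).1 hu
          refine (hmem _).2 ⟨hinv k hk u h1, ?_⟩
          have h3 : ρ m (ρ k u) = ρ k (ρ m u) := by
            rw [← Module.End.mul_apply, ← Module.End.mul_apply, ← map_mul, ← map_mul, hM m hm k hk]
          rw [h3, h2, map_smul])
      exact ⟨u, ((hmem u).1 hu).1, hu0, hu1⟩

/-- subgroups of abelian `2`-groups -/
theorem exists_index_two {B : Type*} [Group B] [Finite B] (hB : ∀ a b : B, a * b = b * a) (hp : IsPGroup 2 B)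
    {N : Subgroup B} (hN : N ≠ ⊤) : ∃ (M : Subgroup B) (b₀ : B), N ≤ M ∧ b₀ ∉ M ∧ b₀ ^ 2 ∈ M ∧
      ∀ b, b ∉ M → b * b₀⁻¹ ∈ M := by
  let _ : CommGroup B := { (inferInstance : Group B) with mul_comm := hB }
  obtain ⟨M, hM, hNM⟩ := (eq_top_or_exists_le_coatom N).resolve_left hN
  obtain ⟨b₀, hb₀⟩ : ∃ b, b ∉ M := by
    by_contra h
    push Not at h
    exact hM.1 ((Subgroup.eq_top_iff' M).2 h)
  have key : ∀ x : B, x ∉ M → x ^ 2 ∈ M := by
    intro x hx
    by_contra h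
    have h1 : M ⊔ zpowers (x ^ 2) = ⊤ := hM.2 _ (lt_of_le_of_ne le_sup_left fun h2 => h (by
      rw [h2]; exact mem_sup_right (mem_zpowers _)))
    have h2 : x ∈ M ⊔ zpowers (x ^ 2) := by rw [h1]; trivial
    rw [Subgroup.mem_sup] at h2
    obtain ⟨m, hm, y, ⟨k, rfl⟩, hxy⟩ := h2
    have hxy' : m * x ^ (2 * k : ℤ) = x := by
      rw [zpow_mul]
      exact_mod_cast hxy
    have h3 : x ^ (1 - 2 * k : ℤ) = m := by
      rw [zpow_sub, zpow_one]
      nth_rewrite 1 [← hxy']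
      rw [mul_inv_cancel_right]
    obtain ⟨j, hj⟩ := hp x
    have h4 : x ^ (1 - 2 * k : ℤ) ∈ M := by rw [h3]; exact hm
    have h5 : IsCoprime (1 - 2 * k : ℤ) ((2 : ℤ) ^ j) := IsCoprime.pow_right ⟨1, k, by ring⟩
    obtain ⟨u, v, huv⟩ := h5
    apply hx
    have h6 : x = (x ^ (1 - 2 * k : ℤ)) ^ u := by
      rw [← zpow_mul, mul_comm]
      have h7 : x ^ ((2 : ℤ) ^ j) = 1 := by exact_mod_cast hj
      calc x = x ^ (u * (1 - 2 * k) + v * 2 ^ j) := by rw [huv, zpow_one]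
        _ = x ^ (u * (1 - 2 * k)) * (x ^ ((2 : ℤ) ^ j)) ^ v := by rw [zpow_add, mul_comm v, zpow_mul x _ v]
        _ = _ := by rw [h7, one_zpow, mul_one]
    rw [h6]
    exact M.zpow_mem h4 u
  refine ⟨M, b₀, hNM, hb₀, key b₀ hb₀, fun b hb => ?_⟩
  have h1 : M ⊔ zpowers b₀ = ⊤ := hM.2 _ (lt_of_le_of_ne le_sup_left fun h2 => hb₀ (by
      rw [h2]; exact mem_sup_right (mem_zpowers _)))
  have h2 : b ∈ M ⊔ zpowers b₀ := by rw [h1]; trivial
  rw [Subgroup.mem_sup] at h2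
  obtain ⟨m, hm, y, ⟨k, rfl⟩, rfl⟩ := h2
  have hb02 : (b₀ : B) ^ (2 : ℤ) ∈ M := by exact_mod_cast key b₀ hb₀
  rcases Int.even_or_odd k with ⟨l, rfl⟩ | ⟨l, rfl⟩
  · exfalso
    apply hb
    refine M.mul_mem hm ?_
    change b₀ ^ (l + l) ∈ M
    rw [← two_mul, zpow_mul]
    exact M.zpow_mem hb02 l
  · change m * b₀ ^ (2 * l + 1) * b₀⁻¹ ∈ M
    rw [zpow_add, zpow_one, mul_assoc, mul_assoc, mul_inv_cancel, mul_one, zpow_mul]
    exact M.mul_mem hm (M.zpow_mem hb02 l)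

/-- **Weights of an abelian `2`-group normalising an abelian group of order prime to the characteristic.** -/
theorem comm_of_weights [IsAlgClosed K] (ρ : G →* End K V) (h2 : (2 : K) ≠ 0) (A B : Subgroup G) [Finite A]
    [Finite B] (hA : ∀ a ∈ A, ∀ a' ∈ A, a * a' = a' * a) (hB : ∀ b ∈ B, ∀ b' ∈ B, b * b' = b' * b)
    (hAK : (Nat.card A : K) ≠ 0) (hBp : IsPGroup 2 B) (hn : ∀ b ∈ B, ∀ a ∈ A, b * a * b⁻¹ ∈ A)
    (hw : ∀ v w : V, v ≠ 0 → w ≠ 0 → (∀ b ∈ B, ∃ s t : K, ρ b v = s • v ∧ ρ b w = t • w ∧ s ^ 2 = t ^ 2) →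
      ∀ b ∈ B, ∀ s t : K, ρ b v = s • v → ρ b w = t • w → s = t) :
    ∀ a ∈ A, ∀ b ∈ B, ρ a * ρ b = ρ b * ρ a := by
  classical
  -- the weight spaces of `A`
  let f : A → End K V := fun a => ρ a
  have hcomm : ∀ i j : A, Commute (f i) (f j) := by
    intro i j
    change ρ i * ρ j = ρ j * ρ i
    rw [← map_mul, ← map_mul, hA i i.2 j j.2]
  have hmaps : ∀ i j φ, Set.MapsTo (f i) ((f j).maxGenEigenspace φ) ((f j).maxGenEigenspace φ) := fun i j φ =>
    Module.End.mapsTo_maxGenEigenspace_of_comm (hcomm j i) φ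
  have hind := Module.End.independent_iInf_maxGenEigenspace_of_forall_mapsTo f hmaps
  have htop := Module.End.iSup_iInf_maxGenEigenspace_eq_top_of_forall_mapsTo f hmaps
    (fun i => Module.End.iSup_maxGenEigenspace_eq_top (f i))
  have hss : ∀ (a : A) (μ : K), (f a).maxGenEigenspace μ = (f a).eigenspace μ := by
    intro a μ
    have h1 : (f a) ^ Nat.card A = 1 := by
      change (ρ a) ^ Nat.card A = 1
      rw [← map_pow]
      have h3 : (a : G) ^ Nat.card A = 1 := by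
        have := pow_card_eq_one' (x := a)
        exact_mod_cast congrArg Subtype.val this
      rw [h3, map_one]
    exact (semisimple_of_pow hAK h1).isFinitelySemisimple.maxGenEigenspace_eq_eigenspace μ
  simp_rw [hss] at hind htop
  set W : (A → K) → Submodule K V := fun χ => ⨅ a, (f a).eigenspace (χ a) with hW
  have hmemW : ∀ χ v, v ∈ W χ ↔ ∀ a : A, ρ a v = χ a • v := by
    intro χ v
    rw [hW]
    simp only [Submodule.mem_iInf, Module.End.mem_eigenspace_iff]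
    rfl
  -- the action of `B` on the weights
  have hn' : ∀ b : B, ∀ a : A, (b : G)⁻¹ * a * b ∈ A := by
    intro b a
    have := hn _ (B.inv_mem b.2) a a.2
    simpa using this
  let act : MulAction B (A → K) :=
    { smul := fun b χ a => χ ⟨(b : G)⁻¹ * a * b, hn' b a⟩
      one_smul := fun χ => by
        funext a
        change χ ⟨((1 : B) : G)⁻¹ * a * ((1 : B) : G), _⟩ = χ a
        congr 1
        apply Subtype.ext
        simp
      mul_smul := fun b b' χ => by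
        funext a
        change χ ⟨((b * b' : B) : G)⁻¹ * a * ((b * b' : B) : G), _⟩ = χ ⟨(b' : G)⁻¹ * ((b : G)⁻¹ * a * b) * b', _⟩
        congr 1
        apply Subtype.ext
        simp [mul_assoc] }
  have hsmul : ∀ (b : B) (χ : A → K) (a : A), (b • χ) a = χ ⟨(b : G)⁻¹ * a * b, hn' b a⟩ := fun b χ a => rfl
  have hmv : ∀ (b : B) (χ : A → K) (v : V), v ∈ W χ → ρ b v ∈ W (b • χ) := by
    intro b χ v hv
    rw [hmemW] at hv ⊢
    intro a
    rw [hsmul, ← map_smul, ← hv ⟨(b : G)⁻¹ * a * b, hn' b a⟩]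
    change ρ a (ρ b v) = ρ b (ρ ((b : G)⁻¹ * a * b) v)
    rw [← Module.End.mul_apply, ← Module.End.mul_apply, ← map_mul, ← map_mul]
    congr 2
    group
  by_contra hcon
  -- a weight which is moved
  obtain ⟨χ, hχ, b₁, hb₁⟩ : ∃ χ, W χ ≠ ⊥ ∧ ∃ b : B, b • χ ≠ χ := by
    by_contra h
    push Not at h
    apply hcon
    intro a ha b hb
    have h3 : (⊤ : Submodule K V) ≤ LinearMap.eqLocus (ρ a * ρ b) (ρ b * ρ a) := by
      rw [← htop]
      refine iSup_le fun χ v hv => ?_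
      by_cases hχ : W χ = ⊥
      · have h4 : v ∈ W χ := hv
        rw [hχ, Submodule.mem_bot] at h4
        rw [h4]
        exact Submodule.zero_mem _
      · have h4 := hmv ⟨b, hb⟩ χ v hv
        rw [h χ hχ ⟨b, hb⟩, hmemW] at h4
        have h5 := (hmemW χ v).1 hv ⟨a, ha⟩
        rw [LinearMap.mem_eqLocus, Module.End.mul_apply, Module.End.mul_apply]
        have h6 : ρ a v = χ ⟨a, ha⟩ • v := h5
        have h7 : ρ a (ρ b v) = χ ⟨a, ha⟩ • ρ b v := h4 ⟨a, ha⟩
        rw [h6, h7, map_smul]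
    exact LinearMap.ext fun v => h3 (Submodule.mem_top (x := v))
  have hBc : ∀ a b : B, a * b = b * a := fun a b => Subtype.ext (hB a a.2 b b.2)
  have hst : MulAction.stabilizer B χ ≠ ⊤ := fun h => hb₁ (by
    have : b₁ ∈ MulAction.stabilizer B χ := by rw [h]; trivial
    exact this)
  obtain ⟨M, b₀, hMs, hb₀, hb₀2, hbM⟩ := exists_index_two hBc hBp hst
  set s₁ : Set (A → K) := {ψ | ∃ m ∈ M, m • χ = ψ} with hs₁
  set s₂ : Set (A → K) := {ψ | ∃ m ∈ M, (b₀ * m) • χ = ψ} with hs₂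
  have hdisj : Disjoint s₁ s₂ := by
    rw [Set.disjoint_left]
    rintro ψ ⟨m, hm, rfl⟩ ⟨m', hm', h⟩
    apply hb₀
    have h3 : m⁻¹ * (b₀ * m') ∈ MulAction.stabilizer B χ := by
      rw [MulAction.mem_stabilizer_iff, mul_smul, h, ← mul_smul, inv_mul_cancel, one_smul]
    have h4 := M.mul_mem (M.mul_mem hm (hMs h3)) (M.inv_mem hm')
    have h5 : m * (m⁻¹ * (b₀ * m')) * m'⁻¹ = b₀ := by group
    rwa [h5] at h4
  have hfin : s₁.Finite := by
    have : s₁ = (fun m : B => m • χ) '' M := by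
      ext ψ
      exact ⟨fun ⟨m, hm, h⟩ => ⟨m, hm, h⟩, fun ⟨m, hm, h⟩ => ⟨m, hm, h⟩⟩
    rw [this]
    exact (Set.toFinite _).image _
  have hUU := hind.disjoint_biSup_biSup' hdisj hfin
  set U : Submodule K V := ⨆ ψ ∈ s₁, W ψ with hU
  have hUmap : ∀ m ∈ M, ∀ u ∈ U, ρ (m : B) u ∈ U := by
    intro m hm
    change U ≤ U.comap (ρ (m : B))
    rw [hU]
    refine iSup₂_le ?_
    rintro ψ ⟨m', hm', rfl⟩ u hu
    have h3 := hmv m _ u hu
    exact Submodule.mem_iSup_of_mem _ (Submodule.mem_iSup_of_mem ⟨m * m', M.mul_mem hm hm', mul_smul _ _ _⟩ h3)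
  have hU0 : U ≠ ⊥ := by
    intro h
    apply hχ
    rw [eq_bot_iff, ← h, hU]
    exact le_iSup₂_of_le χ ⟨1, M.one_mem, one_smul _ _⟩ le_rfl
  have hUb : ∀ u ∈ U, ρ (b₀ : B) u ∈ (⨆ ψ ∈ s₂, W ψ) := by
    change U ≤ (⨆ ψ ∈ s₂, W ψ).comap (ρ (b₀ : B))
    rw [hU]
    refine iSup₂_le ?_
    rintro ψ ⟨m', hm', rfl⟩ u hu
    have h3 := hmv b₀ _ u hu
    exact Submodule.mem_iSup_of_mem _ (Submodule.mem_iSup_of_mem ⟨m', hm', mul_smul _ _ _⟩ h3)
  obtain ⟨u, hu, hu0, hum⟩ := exists_joint ρ (M.map B.subtype) (by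
    rintro _ ⟨a, -, rfl⟩ _ ⟨b, -, rfl⟩
    exact hB a a.2 b b.2) _ U rfl hU0 (by
    rintro _ ⟨m, hm, rfl⟩ u hu
    exact hUmap m hm u hu)
  obtain ⟨d, hd⟩ := hum ((b₀ ^ 2 : B) : G) ⟨_, hb₀2, rfl⟩
  have hinj : Function.Injective (ρ (b₀ : G)) := by
    intro x y hxy
    have h3 : ∀ z, ρ ((b₀ : G)⁻¹) (ρ (b₀ : G) z) = z := by
      intro z
      rw [← Module.End.mul_apply, ← map_mul, inv_mul_cancel, map_one]
      rfl
    rw [← h3 x, hxy, h3]
  have hd' : ρ (b₀ : G) (ρ (b₀ : G) u) = d • u := by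
    rw [← hd, ← Module.End.mul_apply, ← map_mul]
    congr 2
    simp [pow_two]
  have hd0 : d ≠ 0 := by
    rintro rfl
    rw [zero_smul] at hd'
    exact hu0 (hinj (hinj (by rw [hd', map_zero, map_zero])))
  obtain ⟨c, hc⟩ := IsAlgClosed.exists_pow_nat_eq d (n := 2) (by norm_num)
  have hc0 : c ≠ 0 := by
    rintro rfl
    apply hd0
    rw [← hc]
    norm_num
  have hb0u : ρ (b₀ : G) u ∈ (⨆ ψ ∈ s₂, W ψ) := hUb u hu
  have hne : ∀ e : K, e ≠ 0 → e • u + ρ (b₀ : G) u ≠ 0 := by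
    intro e he h
    have h3 : ρ (b₀ : G) u = -(e • u) := by
      rw [add_comm] at h
      exact eq_neg_of_add_eq_zero_left h
    have h4 : ρ (b₀ : G) u ∈ U := by
      rw [h3]
      exact U.neg_mem (U.smul_mem e hu)
    have h5 := (Submodule.disjoint_def.1 hUU) _ h4 hb0u
    rw [h5, eq_comm, neg_eq_zero, smul_eq_zero] at h3
    exact h3.elim he hu0
  have hv : ∀ e : K, e ^ 2 = d → ρ (b₀ : G) (e • u + ρ (b₀ : G) u) = e • (e • u + ρ (b₀ : G) u) := by
    intro e he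
    rw [map_add, map_smul, hd', smul_add, smul_smul, ← pow_two, he, add_comm]
  have hm' : ∀ (m : B) (hm : m ∈ M) (e : K), ∃ s : K, ∀ e : K,
      ρ (m : G) (e • u + ρ (b₀ : G) u) = s • (e • u + ρ (b₀ : G) u) := by
    intro m hm e
    obtain ⟨s, hs⟩ := hum (m : G) ⟨m, hm, rfl⟩
    refine ⟨s, fun e => ?_⟩
    have h3 : ρ (m : G) (ρ (b₀ : G) u) = ρ (b₀ : G) (ρ (m : G) u) := by
      rw [← Module.End.mul_apply, ← Module.End.mul_apply, ← map_mul, ← map_mul, hB m m.2 b₀ b₀.2]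
    rw [map_add, map_smul, h3, hs, map_smul, smul_add, smul_comm]
  have hce : (-c) ^ 2 = d := by rw [neg_sq, hc]
  have h3 := hw (c • u + ρ (b₀ : G) u) ((-c) • u + ρ (b₀ : G) u) (hne c hc0) (hne (-c) (neg_ne_zero.2 hc0)) (by
    intro b hb
    by_cases hbm : (⟨b, hb⟩ : B) ∈ M
    · obtain ⟨s, hs⟩ := hm' ⟨b, hb⟩ hbm 0
      exact ⟨s, s, hs c, hs (-c), rfl⟩
    · obtain ⟨s, hs⟩ := hm' _ (hbM _ hbm) 0
      have h4 : ∀ e : K, e ^ 2 = d → ρ b (e • u + ρ (b₀ : G) u) = (s * e) • (e • u + ρ (b₀ : G) u) := by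
        intro e he
        have h5 : ρ b = ρ (((⟨b, hb⟩ : B) * b₀⁻¹ : B) : G) * ρ (b₀ : G) := by
          rw [← map_mul]
          congr 1
          simp
        rw [h5, Module.End.mul_apply, hv e he, map_smul, hs e, smul_smul, mul_comm]
      refine ⟨s * c, s * (-c), h4 c hc, h4 (-c) hce, by ring⟩) b₀ b₀.2 c (-c) (hv c hc) (hv (-c) hce)
  have h4 : 2 * c = 0 := by rw [two_mul]; nth_rewrite 1 [h3]; exact neg_add_cancel c
  rcases mul_eq_zero.1 h4 with h5 | h5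
  · exact h2 h5
  · exact hc0 h5

end Cfsg.Agent.H205.RM
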